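import Cfsg.Agent.Fix4.Two

/-!
Fixity four: a Sylow `2`-subgroup which is semiregular outside a set of four points.
-/

set_option autoImplicit false

namespace Cfsg.Agent.Fix4

open Subgroup MulAction
open scoped Pointwise

/-- The number of fixed points of a permutation of four points. -/
def nf (σ : Equiv.Perm (Fin 4)) : ℕ := (Finset.univ.filter fun i => σ i = i).card

theorem dec1 : ∀ σ : Equiv.Perm (Fin 4), σ ^ 8 = 1 → Equiv.Perm.sign σ = 1 →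
    (σ = 1 ∨ nf σ = 0) ∧ σ * σ = 1 := by decide +kernel
theorem dec2 : ∀ σ : Equiv.Perm (Fin 4), σ ^ 8 = 1 → Equiv.Perm.sign σ ≠ 1 →
    nf σ = 2 ∨ nf (σ * σ) = 0 := by decide +kernel
theorem dec3 : ∀ σ τ : Equiv.Perm (Fin 4), σ ^ 3 = 1 → (∀ i, τ i ≠ i) → τ * τ = 1 →
    σ * τ = τ * σ → σ = 1 := by decide +kernel
theorem dec4 : ∀ σ τ : Equiv.Perm (Fin 4), σ ^ 3 = 1 → σ ≠ 1 → (∀ i, τ i ≠ i) → τ * τ = 1 →
    τ * (σ * τ * σ⁻¹) * (σ * (σ * τ * σ⁻¹) * σ⁻¹) = 1 := by decide +kernel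
theorem dec5 : ∀ (σ : Equiv.Perm (Fin 4)) (I : Finset (Fin 4)), σ ^ 3 = 1 → σ ≠ 1 →
    (∀ i ∈ I, σ i ∈ I) → I ≠ ∅ → I ≠ Finset.univ → ∃ p, σ p = p ∧ (I = {p} ∨ I = {p}ᶜ) := by
  decide +kernel
theorem dec5' : ∀ (p q : Fin 4) (I : Finset (Fin 4)), (I = {p} ∨ I = {p}ᶜ) →
    (I = {q} ∨ I = {q}ᶜ) → p = q := by decide +kernel
theorem dec6 : ∀ (σ τ : Equiv.Perm (Fin 4)) (p : Fin 4), σ ^ 3 = 1 → σ ≠ 1 → τ ^ 3 = 1 → τ ≠ 1 →
    σ p = p → τ p = p → τ = σ ∨ τ = σ⁻¹ := by decide +kernel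
theorem dec7 : ∀ (σ : Equiv.Perm (Fin 4)), (∀ i, σ i ≠ i) → σ ^ 4 = 1 := by decide +kernel
theorem dec8 : ∀ (σ : Equiv.Perm (Fin 4)), σ ^ 3 = 1 ∨ σ ^ 4 = 1 := by decide +kernel
theorem dec9 : ∀ (σ τ : Equiv.Perm (Fin 3)), σ ^ 3 = 1 → σ ≠ 1 → τ ≠ 1 → τ * τ = 1 →
    let κ := τ * (σ * τ * σ⁻¹) * (σ * (σ * τ * σ⁻¹) * σ⁻¹)
    Equiv.Perm.sign κ = -1 ∧ Equiv.Perm.sign (κ * (σ * κ * σ⁻¹)) = 1 ∧
      κ * (σ * κ * σ⁻¹) ≠ 1 := by decide +kernel
theorem dec10 : ∀ (σ : Equiv.Perm (Fin 3)), Equiv.Perm.sign σ = 1 →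
    σ ^ 3 = 1 ∧ ∀ i, σ i = i → σ = 1 := by decide +kernel

variable {G : Type*} [Group G]

theorem dih_swap {z j : G} (zz : z * z = 1) (jj : j * j = 1) (i : ℕ) :
    z * (z * j) ^ i = ((z * j) ^ i)⁻¹ * z := by
  have zi : z⁻¹ = z := (eq_inv_of_mul_eq_one_left zz).symm
  have ji : j⁻¹ = j := (eq_inv_of_mul_eq_one_left jj).symm
  have h : z * (z * j) * z⁻¹ = (z * j)⁻¹ := by
    rw [← mul_assoc, zz, one_mul, mul_inv_rev, ji]
  rw [← inv_pow, ← h, conj_pow, inv_mul_cancel_right]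

theorem dih_ev {z j : G} (zz : z * z = 1) (jj : j * j = 1) (i : ℕ) :
    IsConj z (z * (z * j) ^ (2 * i)) :=
  isConj_iff.2 ⟨((z * j) ^ i)⁻¹, by rw [← dih_swap zz jj, inv_inv, two_mul, pow_add, mul_assoc]⟩

theorem dih_od {z j : G} (zz : z * z = 1) (jj : j * j = 1) (i : ℕ) :
    IsConj j (z * (z * j) ^ (2 * i + 1)) := by
  refine isConj_iff.2 ⟨((z * j) ^ i)⁻¹, ?_⟩
  have : ((z * j) ^ i)⁻¹ * j = ((z * j) ^ i)⁻¹ * z * (z * j) := by
    rw [mul_assoc, ← mul_assoc z, zz, one_mul]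
  rw [this, ← dih_swap zz jj, inv_inv, show 2 * i + 1 = i + 1 + i by ring, pow_add, pow_succ]
  group

/-- A group whose three involutions form a normal four-group with `1`: no element permutes them
oddly if some element permutes them cyclically. -/
theorem three_invol [Finite G] {H F : Subgroup G} (hF : F ≤ H) (ψ : H →* Equiv.Perm (Fin 3))
    (e : Fin 3 → G) (he : Function.Injective e) (hψ : ∀ (x : H) i, x * e i * x⁻¹ = e (ψ x i))
    (hinv : ∀ v ∈ F, v * v = 1 → v ≠ 1 → ∃ i, v = e i) (hsq : ∀ i j, (e i * e j) ^ 2 = 1)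
    {k y : G} (hk : k ∈ F) (hy : y ∈ F) (hk' : Equiv.Perm.sign (ψ ⟨k, hF hk⟩) = -1)
    (hy' : Equiv.Perm.sign (ψ ⟨y, hF hy⟩) = 1) (hy1 : ψ ⟨y, hF hy⟩ ≠ 1) : False := by
  have : Fact (Nat.Prime 3) := ⟨Nat.prime_three⟩
  let F1 : Subgroup G := F ⊓ (Equiv.Perm.sign.comp ψ).ker.map H.subtype
  have hF1 : ∀ x (hx : x ∈ F), x ∈ F1 ↔ Equiv.Perm.sign (ψ ⟨x, hF hx⟩) = 1 := by
    intro x hx
    refine ⟨?_, fun h => ⟨hx, ⟨x, hF hx⟩, h, rfl⟩⟩
    rintro ⟨-, y, hy, rfl⟩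
    exact hy
  obtain ⟨a, m, hm, ho⟩ := Nat.exists_eq_pow_mul_and_not_dvd (orderOf_pos y).ne' 3 (by norm_num)
  have hz : IsPGroup 3 (zpowers (y ^ m)) := by
    rintro ⟨_, i, rfl⟩
    refine ⟨a, Subtype.ext ?_⟩
    simp only [SubgroupClass.coe_pow, OneMemClass.coe_one]
    rw [← zpow_natCast (_ ^ i), ← zpow_mul, mul_comm, zpow_mul, zpow_natCast, ← pow_mul, mul_comm,
      ← ho, pow_orderOf_eq_one, one_zpow]
  obtain ⟨P, hP, hyP⟩ := Local.exists_isSylowIn_ge hz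
    (zpowers_le.2 (pow_mem ((hF1 y hy).2 hy') m))
  have hkn : k ∈ normalizer (F1 : Set G) := by
    refine mem_normalizer_iff.2 fun x => ⟨fun hx => ?_, fun hx => ?_⟩
    · have h1 := mul_mem (mul_mem hk hx.1) (inv_mem hk)
      rw [hF1 _ h1, show (⟨_, hF h1⟩ : H) = ⟨k, hF hk⟩ * ⟨x, hF hx.1⟩ * (⟨k, hF hk⟩ : H)⁻¹ from rfl,
        map_mul, map_mul, map_mul, map_mul, map_inv, map_inv, mul_inv_cancel_comm]
      exact (hF1 x hx.1).1 hx
    · have h1 : x ∈ F := by simpa [mul_assoc] using mul_mem (mul_mem (inv_mem hk) hx.1) hk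
      have h2 := (hF1 _ hx.1).1 hx
      rw [show (⟨_, hF hx.1⟩ : H) = ⟨k, hF hk⟩ * ⟨x, hF h1⟩ * (⟨k, hF hk⟩ : H)⁻¹ from rfl,
        map_mul, map_mul, map_mul, map_mul, map_inv, map_inv, mul_inv_cancel_comm] at h2
      exact (hF1 _ h1).2 h2
  obtain ⟨x, hx, hxP⟩ := (hP.conj_smul_of_mem_normalizer hkn).exists_conj hP
  rw [← mul_smul, ← map_mul, ← Local.mem_normalizer_iff_conj_smul_eq] at hxP
  have hn : x * k ∈ F := mul_mem hx.1 hk
  have hs : Equiv.Perm.sign (ψ ⟨x * k, hF hn⟩) = -1 := by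
    rw [show (⟨_, hF hn⟩ : H) = ⟨x, hF hx.1⟩ * ⟨k, hF hk⟩ from rfl, map_mul, map_mul, hk',
      (hF1 x hx.1).1 hx, one_mul]
  have hev : 2 ∣ orderOf (x * k) := by
    rw [← even_iff_two_dvd, ← Nat.not_odd_iff_even]
    intro hodd
    have h1 := congrArg (fun σ => Equiv.Perm.sign (ψ σ)) (pow_orderOf_eq_one (⟨x * k, hF hn⟩ : H))
    simp only [map_pow, hs, map_one] at h1
    rw [← orderOf_coe, hodd.neg_one_pow] at h1
    exact absurd h1 (by decide)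
  obtain ⟨r, hr⟩ := exists_pow_orderOf_eq hev
  obtain ⟨i, hi⟩ := hinv _ (pow_mem hn r) (by rw [← pow_two, ← hr, pow_orderOf_eq_one])
    (fun e => by rw [e, orderOf_one] at hr; omega)
  have hvP : e i ∈ normalizer (P : Set G) := hi ▸ pow_mem hxP r
  have hp := hyP (mem_zpowers _)
  have hpF : y ^ m ∈ F := pow_mem hy m
  have ei : (e i)⁻¹ = e i := by
    have := hsq i i
    have h2 : e i * e i = 1 := by rw [← hi, ← pow_two, ← hr, pow_orderOf_eq_one]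
    exact (eq_inv_of_mul_eq_one_left h2).symm
  have h1 : y ^ m * e i * (y ^ m)⁻¹ * e i ∈ P := by
    have := (mem_normalizer_iff.1 hvP _).1 (inv_mem hp)
    rw [ei] at this
    simpa [mul_assoc] using mul_mem hp this
  have h2 := hψ ⟨_, hF hpF⟩ i
  simp only [coe_inv] at h2
  rw [h2] at h1
  have h3 : e (ψ ⟨_, hF hpF⟩ i) * e i = 1 := by
    by_contra h
    have h4 := dvd_orderOf_of_mem hP.isPGroup h1 h
    have h5 := orderOf_dvd_of_pow_eq_one (hsq (ψ ⟨_, hF hpF⟩ i) i)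
    exact absurd (h4.trans h5) (by decide)
  have h4 : ψ ⟨_, hF hpF⟩ i = i := he (by rw [eq_inv_of_mul_eq_one_left h3, ei])
  have h5 : ψ ⟨_, hF hpF⟩ = ψ ⟨y, hF hy⟩ ^ m := by rw [← map_pow]; rfl
  have h6 := (dec10 _ (by rw [h5, map_pow, hy', one_pow])).2 i h4
  rw [h5] at h6
  exact hm (orderOf_eq_prime (dec10 _ hy').1 hy1 ▸ orderOf_dvd_of_pow_eq_one h6)

variable {Ω : Type*} [MulAction G Ω]

/-- Involutions with a fixed point. -/
def Zi (Ω : Type*) [MulAction G Ω] (j : G) : Prop := j * j = 1 ∧ j ≠ 1 ∧ (fixedBy Ω j).Nonempty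

theorem Zi.conj {j k : G} (h : Zi Ω j) (hc : IsConj j k) : Zi Ω k := by
  refine ⟨isConj_mul_self hc h.1, fun e => h.2.1 (isConj_one_left.1 (e ▸ hc)), ?_⟩
  obtain ⟨c, rfl⟩ := isConj_iff.1 hc
  obtain ⟨d, hd⟩ := h.2.2
  exact ⟨_, mem_fixedBy_conj.2 hd⟩

theorem Zi.inv {j : G} (h : Zi Ω j) : j⁻¹ = j := (eq_inv_of_mul_eq_one_left h.1).symm

/-- The configuration: all involutions with fixed points fix exactly a conjugate of `Λ`. -/
structure Cfg (G Ω : Type*) [Group G] [MulAction G Ω] (Λ : Set Ω) : Prop where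
  fix : ∀ x : G, x ≠ 1 → (fixedBy Ω x).ncard ≤ 4
  card : Λ.ncard = 4
  blk : ∀ j : G, Zi Ω j → ∃ g : G, fixedBy Ω j = g • Λ
  stab : ∀ j : G, Zi Ω j → j ∈ stabilizer G Λ → fixedBy Ω j = Λ

namespace Cfg

variable [Finite G] [Finite Ω] {Λ : Set Ω} (C : Cfg G Ω Λ)
include C

omit [Finite G] [Finite Ω] in
theorem stab' {j : G} (hj : Zi Ω j) {g : G} (h : j ∈ stabilizer G (g • Λ)) :
    fixedBy Ω j = g • Λ := by
  have h1 := C.stab _ (hj.conj (isConj_iff.2 ⟨g⁻¹, rfl⟩)) (by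
    have := (conj_mem_stab_smul (h := g⁻¹)).2 h
    rwa [inv_smul_smul] at this)
  rwa [← smul_fixedBy, inv_smul_eq_iff] at h1

omit [Finite G] [Finite Ω] in
theorem fix_eq {j k : G} (hj : Zi Ω j) (hk : Zi Ω k) (h : j * k = k * j) :
    fixedBy Ω j = fixedBy Ω k := by
  obtain ⟨g, hg⟩ := C.blk k hk
  rw [hg]
  exact C.stab' hj (hg ▸ smul_fixedBy_of_commute h)

omit [Finite G] in
theorem fix_of_subset {x : G} (x1 : x ≠ 1) {g : G} (h : g • Λ ⊆ fixedBy Ω x) :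
    fixedBy Ω x = g • Λ :=
  (Set.eq_of_subset_of_ncard_le h (by rw [Set.ncard_smul_set, C.card]; exact C.fix x x1)).symm

omit [Finite Ω] in
theorem odd {z j : G} (hz : Zi Ω z) (hj : Zi Ω j) (h : fixedBy Ω z ≠ fixedBy Ω j) :
    Odd (orderOf (z * j)) := by
  rw [← Nat.not_even_iff_odd]
  rintro ⟨m, hm⟩
  have hpos := orderOf_pos (z * j)
  have vv : (z * j) ^ m * (z * j) ^ m = 1 := by rw [← pow_add, ← hm, pow_orderOf_eq_one]
  have v1 : (z * j) ^ m ≠ 1 := pow_ne_one_of_lt_orderOf (by omega) (by omega)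
  have hzv : z * (z * j) ^ m = (z * j) ^ m * z := by
    rw [dih_swap hz.1 hj.1, ← eq_inv_of_mul_eq_one_left vv]
  have hjv : j * (z * j) ^ m = (z * j) ^ m * j := by
    have h1 : j = z * (z * j) := by rw [← mul_assoc, hz.1, one_mul]
    have h2 := (Commute.self_pow (z * j) m).eq
    generalize z * j = r at *
    rw [h1, mul_assoc, h2, ← mul_assoc, hzv, mul_assoc]
  have h1 : Zi Ω (z * (z * j) ^ m) := by
    rcases Nat.even_or_odd' m with ⟨i, rfl | rfl⟩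
    · exact hz.conj (dih_ev hz.1 hj.1 i)
    · exact hj.conj (dih_od hz.1 hj.1 i)
  have h2 := C.fix_eq h1 hz (by rw [mul_assoc, ← hzv])
  have h3 : fixedBy Ω z ⊆ fixedBy Ω ((z * j) ^ m) := by
    intro c hc
    have h4 : (z * (z * j) ^ m) • c = c := h2.ge hc
    rw [hzv, mul_smul, mem_fixedBy.1 hc] at h4
    exact h4
  have h4 : Zi Ω ((z * j) ^ m) := ⟨vv, v1, hz.2.2.mono h3⟩
  exact h ((C.fix_eq hz h4 hzv).trans (C.fix_eq hj h4 hjv).symm)

omit [Finite Ω] in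
theorem exists_swap {Y : Subgroup G} {z j : G} (hz : Zi Ω z) (hj : Zi Ω j)
    (h : fixedBy Ω z ≠ fixedBy Ω j) (hzY : z ∈ Y) (hjY : j ∈ Y) :
    ∃ k ∈ Y, Zi Ω k ∧ k * z * k = j := by
  obtain ⟨m, hm⟩ := C.odd hz hj h
  have h1 := pow_orderOf_eq_one (z * j)
  rw [hm] at h1
  refine ⟨z * (z * j) ^ (m + 1), mul_mem hzY (pow_mem (mul_mem hzY hjY) _), ?_, ?_⟩
  · have : (z * j) ^ (m + 1) = (z * j) ^ (2 * ((m + 1) * (m + 1))) := by
      rw [show 2 * ((m + 1) * (m + 1)) = (2 * m + 1) * (m + 1) + (m + 1) by ring, pow_add _ (_ * _),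
        pow_mul, h1, one_pow, one_mul]
    rw [this]
    exact hz.conj (dih_ev hz.1 hj.1 _)
  · rw [mul_assoc, ← mul_assoc z z, hz.1, one_mul, mul_assoc, ← pow_add,
      show m + 1 + (m + 1) = 2 * m + 1 + 1 by ring, pow_succ, h1, one_mul, ← mul_assoc, hz.1,
      one_mul]

theorem eq_one_of_inverted {j h : G} (hj : Zi Ω j) (hjΛ : fixedBy Ω j ≠ Λ)
    (hh : j * h * j = h⁻¹) (hf : Λ ⊆ fixedBy Ω h) : h = 1 := by
  by_contra h1
  have h2 := C.fix_of_subset h1 (g := 1) (by rwa [one_smul])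
  rw [one_smul] at h2
  refine hjΛ (C.stab j hj ?_)
  rw [mem_stabilizer_iff, ← h2, smul_fixedBy, hj.inv, hh, fixedBy_inv]

theorem exists_inverted {Y : Subgroup G} {z z' j : G} (hz : Zi Ω z) (hz' : Zi Ω z') (hj : Zi Ω j)
    (h1 : fixedBy Ω z = Λ) (h2 : fixedBy Ω z' = Λ) (h3 : fixedBy Ω j ≠ Λ) (hzY : z ∈ Y)
    (hzY' : z' ∈ Y) (hjY : j ∈ Y) :
    ∃ h ∈ Y, h ∈ stabilizer G Λ ∧ j * h * j = h⁻¹ ∧ h * z * h⁻¹ = z' ∧ h ^ 3 = 1 := by
  obtain ⟨k, hkY, hk, hkz⟩ := C.exists_swap hz (hz'.conj (isConj_iff.2 ⟨j, rfl⟩)) (by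
    rw [← smul_fixedBy, h1, h2]
    exact fun e => h3 (C.stab j hj e.symm)) hzY (mul_mem (mul_mem hjY hzY') (inv_mem hjY))
  have e1 : j * k * z * (j * k)⁻¹ = z' := by
    rw [mul_inv_rev, hk.inv, show j * k * z * (k * j⁻¹) = j * (k * z * k) * j⁻¹ by group, hkz,
      hj.inv, show j * (j * z' * j) * j = (j * j) * z' * (j * j) by group, hj.1]; group
  have e2 : j * k ∈ stabilizer G Λ := by
    rw [mem_stabilizer_iff]
    conv_lhs => rw [← h1]
    rw [smul_fixedBy, e1, h2]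
  have e3 : j * (j * k) * j = (j * k)⁻¹ := by
    rw [← mul_assoc, hj.1, one_mul, mul_inv_rev, hj.inv, hk.inv]
  refine ⟨j * k, mul_mem hjY hkY, e2, e3, e1, ?_⟩
  have e4 : Odd (orderOf (j * k)) := by
    by_cases hjk : fixedBy Ω j = fixedBy Ω k
    · rw [← Nat.not_even_iff_odd, even_iff_two_dvd]
      intro h
      obtain ⟨r, hr⟩ := exists_pow_orderOf_eq h
      have h4 : fixedBy Ω j ⊆ fixedBy Ω ((j * k) ^ r) := fun c hc => pow_smul_eq (by
        rw [mul_smul, mem_fixedBy.1 (hjk.le hc)]; exact hc) r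
      have v1 : (j * k) ^ r ≠ 1 := fun e => by rw [e, orderOf_one] at hr; omega
      have h5 := C.stab _ ⟨by rw [← pow_two, ← hr, pow_orderOf_eq_one], v1, hj.2.2.mono h4⟩
        (pow_mem e2 r)
      obtain ⟨g, hg⟩ := C.blk j hj
      exact h3 (hg.trans ((C.fix_of_subset v1 (hg ▸ h4)).symm.trans h5))
    · exact C.odd hj hk hjk
  obtain ⟨e, φ, -, hr, hφ⟩ := exists_permHom (stabilizer G Λ) C.card
    (fun x hx c hc => smul_mem_of_stab hx hc)
  have e5 : ∀ i : ℕ, φ ⟨_, e2⟩ ^ i = 1 → (j * k) ^ i = 1 := by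
    intro i hi
    refine C.eq_one_of_inverted hj h3 ?_ ?_
    · have := conj_pow (i := i) (a := j) (b := j * k)
      rw [hj.inv, e3] at this
      rw [← this, inv_pow]
    · rw [← hr]
      rintro _ ⟨a, rfl⟩
      have := hφ (⟨_, e2⟩ ^ i) a
      rwa [map_pow, hi] at this
  rcases dec8 (φ ⟨_, e2⟩) with h | h
  · exact e5 _ h
  · have h4 := orderOf_dvd_of_pow_eq_one (e5 _ h)
    have h5 : orderOf (j * k) = 1 := Nat.Coprime.eq_one_of_dvd
      (Nat.Coprime.pow_right 2 (Nat.coprime_two_right.2 e4)) h4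
    rw [orderOf_eq_one_iff.1 h5, one_pow]

omit [Finite G] in
theorem eq_of_inverted {j h h' : G} (hj : Zi Ω j) (hjΛ : fixedBy Ω j ≠ Λ)
    (hh : j * h * j = h⁻¹) (hh' : j * h' * j = h'⁻¹) (h1 : h ∈ stabilizer G Λ)
    (he : ∀ c ∈ Λ, h • c = h' • c) : h = h' := by
  by_contra hne
  have h2 : h⁻¹ * h' ≠ 1 := fun e => hne (inv_mul_eq_one.1 e)
  have h3 := C.fix_of_subset h2 (g := 1) (fun c hc => by
    rw [one_smul] at hc
    rw [mem_fixedBy, mul_smul, ← he c hc, inv_smul_smul])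
  have h4 := C.fix_of_subset h2 (g := j) (by
    rintro _ ⟨c, hc, rfl⟩
    have e1 : ∀ x : G, j * x * j = x⁻¹ → x • j • c = j • x⁻¹ • c := fun x hx => by
      rw [← hx, smul_smul, smul_smul, ← mul_assoc, ← mul_assoc, hj.1, one_mul]
    have e2 : h'⁻¹ • c = h⁻¹ • c := by
      rw [inv_smul_eq_iff, ← he _ (smul_mem_of_stab (inv_mem h1) hc), smul_inv_smul]
    rw [mem_fixedBy, mul_smul, inv_smul_eq_iff, e1 h hh, e1 h' hh', e2])
  rw [h3, one_smul] at h4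
  exact hjΛ (C.stab j hj h4.symm)

/-- There are at most three involutions fixing `Λ`. -/
theorem ncard_le_three {z j : G} (hz : Zi Ω z) (hj : Zi Ω j) (h1 : fixedBy Ω z = Λ)
    (h3 : fixedBy Ω j ≠ Λ) (hodd : Odd {x : G | Zi Ω x ∧ fixedBy Ω x = Λ}.ncard) :
    {x : G | Zi Ω x ∧ fixedBy Ω x = Λ}.ncard ≤ 3 := by
  classical
  obtain ⟨e, φ, he, hr, hφ⟩ := exists_permHom (stabilizer G Λ) C.card
    (fun x hx c hc => smul_mem_of_stab hx hc)
  have hjΛ : j • Λ ≠ Λ := fun e => h3 (C.stab j hj e)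
  have hD : ∀ h, h ∈ stabilizer G Λ → j * h * j = h⁻¹ → h ∈ stabilizer G (j • Λ) := by
    intro h h1 h2
    have := (conj_mem_stab_smul (h := j)).2 h1
    rwa [hj.inv, h2, inv_mem_iff] at this
  have hφ1 : ∀ x : stabilizer G Λ, φ x = 1 → Λ ⊆ fixedBy Ω (x : G) := by
    intro x hx c hc
    obtain ⟨a, rfl⟩ := hr.ge hc
    have := hφ x a
    rwa [hx] at this
  by_cases hI : (Λ ∩ j • Λ).Nonempty
  · choose! f hf using fun (x : G) (hx : Zi Ω x ∧ fixedBy Ω x = Λ) =>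
      C.exists_inverted (Y := ⊤) hz hx.1 hj h1 hx.2 h3 (mem_top _) (mem_top _) (mem_top _)
    let I : Finset (Fin 4) := Finset.univ.filter fun i => e i ∈ j • Λ
    have hI0 : I ≠ ∅ := by
      obtain ⟨c, hc, hc'⟩ := hI
      rw [← hr] at hc
      obtain ⟨i, rfl⟩ := hc
      exact Finset.ne_empty_of_mem (Finset.mem_filter.2 ⟨Finset.mem_univ i, hc'⟩)
    have hI1 : I ≠ Finset.univ := by
      intro h
      refine hjΛ (Set.eq_of_subset_of_ncard_le ?_ (by rw [Set.ncard_smul_set])).symm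
      conv_lhs => rw [← hr]
      rintro _ ⟨i, rfl⟩
      exact (Finset.mem_filter.1 (h.ge (Finset.mem_univ i))).2
    have key : ∀ x (hx : Zi Ω x ∧ fixedBy Ω x = Λ), x ≠ z → φ ⟨f x, (hf x hx).2.1⟩ ^ 3 = 1 ∧
        φ ⟨f x, (hf x hx).2.1⟩ ≠ 1 ∧ ∃ p, φ ⟨f x, (hf x hx).2.1⟩ p = p ∧
          (I = {p} ∨ I = {p}ᶜ) := by
      intro x hx hxz
      obtain ⟨-, k1, k2, k3, k4⟩ := hf x hx
      have e1 : φ ⟨f x, k1⟩ ^ 3 = 1 := by
        rw [← map_pow, show (⟨f x, k1⟩ : stabilizer G Λ) ^ 3 = 1 from Subtype.ext k4, map_one]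
      have e2 : φ ⟨f x, k1⟩ ≠ 1 := fun e => hxz (by
        rw [← k3, C.eq_one_of_inverted hj h3 k2 (hφ1 _ e)]; group)
      refine ⟨e1, e2, dec5 _ I e1 e2 (fun i hi => ?_) hI0 hI1⟩
      rw [Finset.mem_filter] at hi ⊢
      exact ⟨Finset.mem_univ _, hφ _ i ▸ smul_mem_of_stab (hD _ k1 k2) hi.2⟩
    have inj : ∀ x (hx : Zi Ω x ∧ fixedBy Ω x = Λ) y (hy : Zi Ω y ∧ fixedBy Ω y = Λ),
        φ ⟨f x, (hf x hx).2.1⟩ = φ ⟨f y, (hf y hy).2.1⟩ → x = y := by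
      intro x hx y hy h
      have := C.eq_of_inverted hj h3 (hf x hx).2.2.1 (hf y hy).2.2.1 (hf x hx).2.1 (by
        rw [← hr]
        rintro _ ⟨a, rfl⟩
        exact (hφ ⟨f x, (hf x hx).2.1⟩ a).trans (h ▸ (hφ ⟨f y, (hf y hy).2.1⟩ a).symm))
      rw [← (hf x hx).2.2.2.1, this, (hf y hy).2.2.2.1]
    by_contra hlt
    obtain ⟨a, ha, ha'⟩ := Set.exists_mem_notMem_of_ncard_lt_ncard
      (show ({z} : Set G).ncard < {x : G | Zi Ω x ∧ fixedBy Ω x = Λ}.ncard by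
        rw [Set.ncard_singleton]; omega)
    obtain ⟨b, hb, hb'⟩ := Set.exists_mem_notMem_of_ncard_lt_ncard
      (show ({a, z} : Set G).ncard < {x : G | Zi Ω x ∧ fixedBy Ω x = Λ}.ncard by
        rw [Set.ncard_pair ha']; omega)
    obtain ⟨c, hc, hc'⟩ := Set.exists_mem_notMem_of_ncard_lt_ncard
      (show ({b, a, z} : Set G).ncard < {x : G | Zi Ω x ∧ fixedBy Ω x = Λ}.ncard by
        rw [Set.ncard_insert_of_notMem hb', Set.ncard_pair ha']; omega)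
    simp only [Set.mem_insert_iff, Set.mem_singleton_iff, not_or] at ha' hb' hc'
    obtain ⟨a1, a2, p, a3, a4⟩ := key a ha ha'
    obtain ⟨b1, b2, q, b3, b4⟩ := key b hb hb'.2
    obtain ⟨c1, c2, r, c3, c4⟩ := key c hc hc'.2.2
    obtain rfl := dec5' p q I a4 b4
    obtain rfl := dec5' p r I a4 c4
    have k1 := (dec6 _ _ p a1 a2 b1 b2 a3 b3).resolve_left fun e => hb'.1 (inj _ hb _ ha e)
    have k2 := (dec6 _ _ p a1 a2 c1 c2 a3 c3).resolve_left fun e => hc'.2.1 (inj _ hc _ ha e)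
    exact hc'.1 (inj _ hc _ hb (k2.trans k1.symm))
  · set D := stabilizer G Λ ⊓ stabilizer G (j • Λ)
    have k1 : Nat.card D ∣ Λ.ncard.factorial := by
      refine card_dvd_factorial (fun x hx c hc => smul_mem_of_stab hx.1 hc) fun x hx h => ?_
      by_contra x1
      have k2 := C.fix_of_subset x1 (g := 1) (by rw [one_smul]; exact h)
      rw [one_smul] at k2
      obtain ⟨e', φ', he', hr', hφ'⟩ := exists_permHom (stabilizer G (j • Λ))
        ((Set.ncard_smul_set _ _).trans C.card) (fun x hx c hc => smul_mem_of_stab hx hc)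
      have k3 : ∀ i, φ' ⟨x, hx.2⟩ i ≠ i := fun i hi => hI ⟨e' i, k2.le (by
        have := hφ' ⟨x, hx.2⟩ i
        rwa [hi] at this), hr' ▸ Set.mem_range_self i⟩
      have k4 : 2 ∣ orderOf x := by
        rw [← even_iff_two_dvd, ← Nat.not_odd_iff_even]
        intro ho
        have k5 := orderOf_dvd_of_pow_eq_one (dec7 _ k3)
        have k6 := orderOf_map_dvd φ' ⟨x, hx.2⟩
        rw [← orderOf_coe] at k6
        have k7 : orderOf (φ' ⟨x, hx.2⟩) = 1 := Nat.Coprime.eq_one_of_dvd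
          (Nat.Coprime.pow_right 2 (Nat.coprime_two_right.2 (ho.of_dvd_nat k6))) k5
        exact k3 0 (by rw [orderOf_eq_one_iff.1 k7]; rfl)
      obtain ⟨r, hr⟩ := exists_pow_orderOf_eq k4
      have v1 : x ^ r ≠ 1 := fun e => by rw [e, orderOf_one] at hr; omega
      have k8 : Λ ⊆ fixedBy Ω (x ^ r) := fun c hc => pow_smul_eq (h c hc) r
      have k9 : Zi Ω (x ^ r) := ⟨by rw [← pow_two, ← hr, pow_orderOf_eq_one], v1,
        (h1 ▸ hz.2.2).mono k8⟩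
      exact hjΛ ((C.stab' k9 (pow_mem hx.2 r)).symm.trans (C.stab _ k9 (pow_mem hx.1 r)))
    have k2 : cl D z = {x : G | Zi Ω x ∧ fixedBy Ω x = Λ} := by
      ext x
      constructor
      · rintro ⟨s, hs, rfl⟩
        exact ⟨hz.conj (isConj_iff.2 ⟨s, rfl⟩), by rw [← smul_fixedBy, h1]; exact hs.1⟩
      · intro hx
        obtain ⟨h, -, a1, a2, a3, -⟩ :=
          C.exists_inverted (Y := ⊤) hz hx.1 hj h1 hx.2 h3 (mem_top _) (mem_top _) (mem_top _)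
        exact ⟨h, ⟨a1, hD h a1 a2⟩, a3⟩
    have k3 := (Dvd.intro_left _ (card_cent_mul D z)).trans k1
    rw [k2, C.card] at k3
    exact Nat.le_of_dvd three_pos ((Nat.Coprime.pow_right 3
      (Nat.coprime_two_right.2 hodd)).dvd_of_dvd_mul_left k3)

end Cfg

variable [Finite G] [Finite Ω]

theorem ncard_modEq_of_invol {u : G} (uu : u * u = 1) {Z : Set G}
    (h : ∀ x ∈ Z, u * x * u⁻¹ ∈ Z) {z : G} (hz : ∀ x, x ∈ Z ∧ u * x * u⁻¹ = x ↔ x = z) :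
    Odd Z.ncard := by
  let _ : MulAction G G := MulAction.compHom G (MulAut.conj (G := G))
  let M : SubMulAction (zpowers u) G := ⟨Z, by
    rintro ⟨x, hx⟩ y hy
    rcases eq_or_of_mem_zpowers uu hx with rfl | rfl
    · change 1 * y * 1⁻¹ ∈ Z
      simpa using hy
    · exact h y hy⟩
  have hP : IsPGroup 2 (zpowers u) := by
    rintro ⟨x, hx⟩
    refine ⟨1, Subtype.ext ?_⟩
    rcases eq_or_of_mem_zpowers uu hx with rfl | rfl
    · simp
    · simpa [pow_two] using uu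
  have h1 := hP.card_modEq_card_fixedPoints M
  have h2 : fixedPoints (zpowers u) M = {⟨z, ((hz z).2 rfl).1⟩} := by
    ext x
    constructor
    · intro hx
      exact Subtype.ext ((hz x).1 ⟨x.2, congrArg Subtype.val (hx ⟨u, mem_zpowers u⟩)⟩)
    · rintro rfl ⟨y, hy⟩
      apply Subtype.ext
      rcases eq_or_of_mem_zpowers uu hy with rfl | rfl
      · change 1 * z * 1⁻¹ = z
        simp
      · exact ((hz z).2 rfl).2
  rw [h2, Nat.card_coe_set_eq, Set.ncard_singleton] at h1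
  exact Nat.odd_iff.2 h1

theorem cfg_of_sylow (hG : _root_.commutator G = ⊤)
    (hfix : ∀ x : G, x ≠ 1 → (fixedBy Ω x).ncard ≤ 4) {t : G} (ht : orderOf t = 2)
    (ht4 : (fixedBy Ω t).ncard = 4) (S : Sylow 2 G) (hS : (nr Ω (S : Subgroup G)).ncard ≤ 4) :
    Cfg G Ω (nr Ω (S : Subgroup G)) ∧ ∀ x ∈ (S : Subgroup G), x ≠ 1 → (fixedBy Ω x).Nonempty →
      fixedBy Ω x = nr Ω (S : Subgroup G) := by
  set Q : Subgroup G := (S : Subgroup G)
  have hQ : IsPGroup 2 Q := S.isPGroup'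
  set Λ := nr Ω Q
  have hsub : ∀ x ∈ Q, x ≠ 1 → fixedBy Ω x ⊆ Λ := fun x hx x1 c hc => ⟨x, hx, x1, hc⟩
  have hΛ : Λ.ncard = 4 := by
    obtain ⟨h, -, hh⟩ := exists_conj_mem_sylow S le_top (mem_top t) (k := 1)
      (by rw [pow_one, ← ht, pow_orderOf_eq_one])
    have := Set.ncard_le_ncard (hsub _ hh fun e => by
      rw [conj_eq_one_iff.1 e, orderOf_one] at ht; omega)
    rw [ncard_fixedBy_conj] at this
    omega
  have hQH : Q ≤ stabilizer G Λ := fun x hx => mem_stab_set fun c hc => smul_mem_nr hx hc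
  obtain ⟨e, φ, he, hr, hφ⟩ := exists_permHom Q hΛ (fun x hx c hc => smul_mem_nr hx hc)
  have hnf : ∀ x : Q, x ≠ 1 → (fixedBy Ω (x : G)).ncard = nf (φ x) := by
    intro x x1
    have : fixedBy Ω (x : G) = e '' (Finset.univ.filter fun i => φ x i = i : Finset (Fin 4)) := by
      ext c
      constructor
      · intro hc
        obtain ⟨i, rfl⟩ : c ∈ Set.range e := hr ▸ hsub x x.2 (fun h => x1 (Subtype.ext h)) hc
        exact ⟨i, by simpa using he ((hφ x i).symm.trans hc), rfl⟩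
      · rintro ⟨i, hi, rfl⟩
        rw [mem_fixedBy, hφ, (Finset.mem_filter.1 hi).2]
    rw [this, Set.ncard_image_of_injective _ he, Set.ncard_coe_finset, nf]
  have h8 : ∀ x : Q, φ x ^ 8 = 1 := by
    intro x
    obtain ⟨k, hk⟩ := hQ x
    have h1 : orderOf (φ x) ∣ 2 ^ k := orderOf_dvd_of_pow_eq_one (by rw [← map_pow, hk, map_one])
    obtain ⟨j, -, hj⟩ := (Nat.dvd_prime_pow Nat.prime_two).1 h1
    have h2 := orderOf_dvd_natCard (φ x)
    rw [Nat.card_perm, Nat.card_fin, hj] at h2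
    have h3 : j ≤ 3 := by
      by_contra h
      exact absurd ((pow_dvd_pow 2 (show 4 ≤ j by omega)).trans h2) (by decide)
    exact orderOf_dvd_iff_pow_eq_one.1 (hj ▸ pow_dvd_pow 2 h3)
  have nf1 : nf 1 = 4 := by decide
  have hsign : ∀ x : Q, Equiv.Perm.sign (φ x) = 1 := by
    by_contra hh
    push Not at hh
    obtain ⟨x0, hx0⟩ := hh
    obtain ⟨y, hy, y', hy', ⟨w, hw, rfl⟩, hyM, hcj⟩ := Block.exists_fuse hG S
      (M := (Equiv.Perm.sign.comp φ).ker.map Q.subtype) (by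
        change ((((Equiv.Perm.sign.comp φ).ker.map Q.subtype)).subgroupOf Q).index = 2
        rw [subgroupOf, comap_map_eq_self_of_injective Q.subtype_injective, index_ker,
          MonoidHom.range_eq_top.2, card_top, Nat.card_eq_fintype_card]
        · rfl
        · intro u
          rcases Int.units_eq_one_or u with rfl | rfl
          · exact ⟨1, map_one _⟩
          · exact ⟨x0, (Int.units_eq_one_or _).resolve_left hx0⟩)
    have hy's : Equiv.Perm.sign (φ ⟨y', hy'⟩) ≠ 1 := fun h => hyM ⟨⟨y', hy'⟩, h, rfl⟩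
    have y1' : (⟨y', hy'⟩ : Q) ≠ 1 := fun h => hy's (by rw [h, map_one, map_one])
    have w1 : w ≠ 1 := fun h => y1' (Subtype.ext (isConj_one_right.1 (by simpa [h] using hcj)))
    obtain ⟨a1, a2⟩ := dec1 _ (h8 w) hw
    have k1 := ncard_fixedBy_isConj (Ω := Ω) hcj
    rcases dec2 _ (h8 ⟨y', hy'⟩) hy's with h | h
    · have k2 := hnf _ y1'
      have k3 := hnf _ w1
      change (fixedBy Ω y').ncard = (fixedBy Ω (w : G)).ncard at k1
      change (fixedBy Ω y').ncard = _ at k2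
      rcases a1 with a1 | a1
      · rw [a1] at k3; omega
      · omega
    · rw [← map_mul] at h a2
      have y2 : (⟨y', hy'⟩ : Q) * ⟨y', hy'⟩ ≠ 1 := fun e => by
        rw [e, map_one] at h; omega
      have hcj2 : IsConj ((w * w : Q) : G) ((⟨y', hy'⟩ * ⟨y', hy'⟩ : Q) : G) := by
        have := hcj.pow 2
        rwa [pow_two, pow_two] at this
      have w2 : w * w ≠ 1 := fun e => y2 (Subtype.ext (isConj_one_right.1 (by
        rwa [e] at hcj2)))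
      have k2 := hnf _ y2
      have k3 := hnf _ w2
      rw [ncard_fixedBy_isConj hcj2, k3, a2] at k2
      omega
  have E1 : ∀ x ∈ Q, x ≠ 1 → (fixedBy Ω x).Nonempty → fixedBy Ω x = Λ := by
    intro x hx x1 hne
    have k1 := hnf ⟨x, hx⟩ (fun h => x1 (congrArg Subtype.val h))
    refine Set.eq_of_subset_of_ncard_le (hsub x hx x1) ?_
    rcases (dec1 _ (h8 ⟨x, hx⟩) (hsign _)).1 with h | h
    · rw [h, nf1] at k1
      rw [hΛ]; exact k1.ge
    · rw [h, Set.ncard_eq_zero] at k1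
      exact absurd k1 hne.ne_empty
  refine ⟨⟨hfix, hΛ, fun j hj => ?_, fun j hj hjΛ => ?_⟩, E1⟩
  · obtain ⟨h, -, hh⟩ := exists_conj_mem_sylow S le_top (mem_top j) (k := 1)
      (by rw [pow_one, pow_two, hj.1])
    have k1 := hj.conj (isConj_iff.2 ⟨h, rfl⟩)
    have k2 := E1 _ hh k1.2.1 k1.2.2
    rw [← smul_fixedBy, smul_eq_iff_eq_inv_smul] at k2
    exact ⟨_, k2⟩
  · obtain ⟨h, hh', hh⟩ := exists_conj_mem_sylow S hQH hjΛ (k := 1)
      (by rw [pow_one, pow_two, hj.1])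
    have k1 := hj.conj (isConj_iff.2 ⟨h, rfl⟩)
    have k2 := E1 _ hh k1.2.1 k1.2.2
    rwa [← smul_fixedBy, smul_eq_iff_eq_inv_smul, mem_stabilizer_iff.1 (inv_mem hh')] at k2

theorem rk_end [FaithfulSMul G Ω] [IsPretransitive G Ω] (hG : _root_.commutator G = ⊤)
    (hfix : ∀ x : G, x ≠ 1 → (fixedBy Ω x).ncard ≤ 4) {t : G} (ht : orderOf t = 2)
    (ht4 : (fixedBy Ω t).ncard = 4) (hSE : ¬ ∃ H : Subgroup G, Cfsg.IsStronglyEmbedded H)
    (S : Sylow 2 G) (hS : (nr Ω (S : Subgroup G)).ncard ≤ 4) (U : Subgroup G)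
    (hU : U ≤ (S : Subgroup G)) : Rk U 16 := by
  obtain ⟨C, E1⟩ := cfg_of_sylow hG hfix ht ht4 S hS
  set Q : Subgroup G := (S : Subgroup G)
  have hQ : IsPGroup 2 Q := S.isPGroup'
  set Λ := nr Ω Q
  have hQH : Q ≤ stabilizer G Λ := fun x hx => mem_stab_set fun c hc => smul_mem_nr hx hc
  obtain ⟨b, hb⟩ : Λ.Nonempty := Set.nonempty_of_ncard_ne_zero (by rw [C.card]; norm_num)
  obtain ⟨x0, hx0, x1, hxb⟩ := id hb
  have hK : ∀ x ∈ Q, x • b = b → Λ ⊆ fixedBy Ω x := by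
    intro x hx h c hc
    by_cases x1 : x = 1
    · rw [x1]; exact one_smul _ _
    · exact (E1 x hx x1 ⟨b, h⟩).ge hc
  have hnorm : ((stabilizer G b).subgroupOf Q).Normal := ⟨fun v hv g => by
    change ((g : G) * v * (g : G)⁻¹) • b = b
    have : (v : G) • (g : G)⁻¹ • b = (g : G)⁻¹ • b := hK v v.2 hv (smul_mem_nr (inv_mem g.2) hb)
    rw [mul_smul, mul_smul, this, smul_inv_smul]⟩
  obtain ⟨⟨z, hzQ⟩, hzb, hz2, hzZ⟩ := LinP.exists_central_of_normal hQ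
    ((stabilizer G b).subgroupOf Q) (fun e => x1 (congrArg Subtype.val (mem_bot.1 (e.le
      (show (⟨x0, hx0⟩ : Q) ∈ (stabilizer G b).subgroupOf Q from hxb)))))
  have hzc : ∀ v ∈ Q, v * z = z * v := fun v hv =>
    congrArg Subtype.val (mem_center_iff.1 hzZ ⟨v, hv⟩)
  rw [← orderOf_coe] at hz2
  change orderOf z = 2 at hz2
  change z • b = b at hzb
  have hz : Zi Ω z := ⟨by rw [← pow_two, ← hz2, pow_orderOf_eq_one],
    fun e => by rw [e, orderOf_one] at hz2; omega, b, hzb⟩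
  have hzΛ := E1 z hzQ hz.2.1 hz.2.2
  by_cases huniq : ∀ x ∈ Q ⊓ stabilizer G b, x * x = 1 → x = 1 ∨ x = z
  · refine rk_mul (B := stabilizer G b) (k := 4) (l := 4) (rk_of_unique (hQ.to_le inf_le_left)
      huniq (fun x hx => ⟨hU hx.2, hx.1⟩)) ?_
    rw [relIndex_stab, ← C.card]
    exact Set.ncard_le_ncard (orb_subset (fun x hx c hc => smul_mem_nr (hU hx) hc) hb)
  exfalso
  push Not at huniq
  obtain ⟨s, hs, ss, s1, hsz⟩ := huniq
  have hs' : Zi Ω s := ⟨ss, s1, b, hs.2⟩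
  have hsΛ := E1 s hs.1 s1 hs'.2.2
  obtain ⟨u, hu, uu, u1, g, hg, hug⟩ : ∃ u ∈ Q, u * u = 1 ∧ u ≠ 1 ∧
      ∃ g : G, g • Λ ≠ Λ ∧ u ∈ stabilizer G (g • Λ) := by
    by_contra hh
    refine hSE ⟨stabilizer G Λ, fun ht => hz.2.1 ?_,
      even_iff_two_dvd.2 (hz2 ▸ (stabilizer G Λ).orderOf_dvd_natCard (hQH hzQ)), fun g hg => ?_⟩
    · apply FaithfulSMul.eq_of_smul_eq_smul (α := Ω)
      intro d
      obtain ⟨g, rfl⟩ := exists_smul_eq G b d
      rw [one_smul]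
      exact hzΛ.ge (smul_mem_of_stab (ht ▸ mem_top g) hb)
    rw [← Nat.not_even_iff_odd, even_iff_two_dvd]
    intro hd
    obtain ⟨⟨u, hu1, v, hv, rfl⟩, hu⟩ := exists_prime_orderOf_dvd_card' 2 hd
    rw [← orderOf_coe] at hu
    change orderOf (g * v * g⁻¹) = 2 at hu
    obtain ⟨h, hh', hh1⟩ := exists_conj_mem_sylow S hQH hu1 (k := 1)
      (by rw [pow_one, ← hu]; exact pow_orderOf_eq_one _)
    refine hh ⟨_, hh1, ?_, fun e => ?_, h * g, fun e => hg ?_, ?_⟩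
    · rw [← pow_two, conj_pow, ← hu]
      erw [pow_orderOf_eq_one]; group
    · rw [show g * v * g⁻¹ = 1 from conj_eq_one_iff.1 e, orderOf_one] at hu; omega
    · rwa [mul_smul, smul_eq_iff_eq_inv_smul, mem_stabilizer_iff.1 (inv_mem hh')] at e
    · rw [mul_smul]
      exact conj_mem_stab_smul.2 (conj_mem_stab_smul.2 hv)
  have hufix : ∀ c, u • c ≠ c := fun c hc =>
    hg ((C.stab' ⟨uu, u1, c, hc⟩ hug).symm.trans (E1 u hu u1 ⟨c, hc⟩))
  obtain ⟨j, hj, hjΛ, hju⟩ : ∃ j, Zi Ω j ∧ fixedBy Ω j ≠ Λ ∧ j * u = u * j := by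
    have h1 : g⁻¹ * u * g⁻¹⁻¹ ∈ stabilizer G Λ := by
      have := (conj_mem_stab_smul (h := g⁻¹)).2 hug
      rwa [inv_smul_smul] at this
    obtain ⟨h, hh', hh1⟩ := exists_conj_mem_sylow S hQH h1 (k := 1)
      (by rw [pow_one, conj_pow, pow_two, uu]; group)
    refine ⟨g * h⁻¹ * z * (g * h⁻¹)⁻¹, hz.conj (isConj_iff.2 ⟨_, rfl⟩), ?_, ?_⟩
    · rwa [← smul_fixedBy, hzΛ, mul_smul, mem_stabilizer_iff.1 (inv_mem hh')]
    · have := hzc _ hh1
      calc g * h⁻¹ * z * (g * h⁻¹)⁻¹ * u = g * h⁻¹ * (z * (h * (g⁻¹ * u * g⁻¹⁻¹) * h⁻¹)) *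
            (g * h⁻¹)⁻¹ := by group
        _ = _ := by rw [← this]; group
  obtain ⟨e, φ, he, hr, hφ⟩ := exists_permHom (stabilizer G Λ) C.card
    (fun x hx c hc => smul_mem_of_stab hx hc)
  have hφ1 : ∀ x : stabilizer G Λ, φ x = 1 → Λ ⊆ fixedBy Ω (x : G) := by
    intro x hx c hc
    obtain ⟨a, rfl⟩ := hr.ge hc
    have := hφ x a
    rwa [hx] at this
  set u' : stabilizer G Λ := ⟨u, hQH hu⟩
  have hu1 : ∀ i, φ u' i ≠ i := fun i hi => hufix (e i) (by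
    have := hφ u' i
    rwa [hi] at this)
  have hu2 : φ u' * φ u' = 1 := by rw [← map_mul, show u' * u' = 1 from Subtype.ext uu, map_one]
  have hcube : ∀ (h : G) (hh : h ∈ stabilizer G Λ), h ^ 3 = 1 → φ ⟨h, hh⟩ ^ 3 = 1 := fun h hh h3 => by
    rw [← map_pow, show (⟨h, hh⟩ : stabilizer G Λ) ^ 3 = 1 from Subtype.ext h3, map_one]
  set Z := {x : G | Zi Ω x ∧ fixedBy Ω x = Λ}
  have hZinv : ∀ x ∈ stabilizer G Λ, ∀ y ∈ Z, x * y * x⁻¹ ∈ Z := fun x hx y hy =>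
    ⟨hy.1.conj (isConj_iff.2 ⟨x, rfl⟩), by rw [← smul_fixedBy, hy.2]; exact hx⟩
  have huz : ∀ x, x ∈ Z ∧ u * x * u⁻¹ = x ↔ x = z := by
    refine fun x => ⟨fun ⟨hx, h⟩ => ?_, by
      rintro rfl; exact ⟨⟨hz, hzΛ⟩, by rw [hzc u hu, mul_inv_cancel_right]⟩⟩
    obtain ⟨h, hhY, k1, k2, k3, k4⟩ := C.exists_inverted (Y := centralizer {u}) hz hx.1 hj hzΛ hx.2
      hjΛ (mem_centralizer_singleton_iff.2 (hzc u hu).symm) (mem_centralizer_singleton_iff.2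
        (mul_inv_eq_iff_eq_mul.1 h).symm) (mem_centralizer_singleton_iff.2 hju)
    have k5 := dec3 _ _ (hcube h k1 k4) hu1 hu2 (by
      rw [← map_mul, ← map_mul]
      exact congrArg φ (Subtype.ext (mem_centralizer_singleton_iff.1 hhY)))
    rw [← k3, C.eq_one_of_inverted hj hjΛ k2 (hφ1 _ k5)]; group
  have hZ3 := C.ncard_le_three hz hj hzΛ hjΛ (ncard_modEq_of_invol uu (hZinv u (hQH hu)) huz)
  have hzs : z * s ≠ 1 := fun e => hsz (by rw [eq_inv_of_mul_eq_one_right e, hz.inv])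
  have hzs2 : z * s * (z * s) = 1 := by
    rw [mul_assoc, ← mul_assoc s, hzc s hs.1, mul_assoc, ss, mul_one, hz.1]
  have hzsb : (z * s) • b = b := by rw [mul_smul, mem_stabilizer_iff.1 hs.2, hzb]
  have hsubZ : ({z, s, z * s} : Set G) ⊆ Z := by
    rintro _ (rfl | rfl | rfl)
    · exact ⟨hz, hzΛ⟩
    · exact ⟨hs', hsΛ⟩
    · exact ⟨⟨hzs2, hzs, b, hzsb⟩, E1 _ (mul_mem hzQ hs.1) hzs ⟨b, hzsb⟩⟩
  have hc3 : ({z, s, z * s} : Set G).ncard = 3 := by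
    rw [Set.ncard_insert_of_notMem, Set.ncard_pair]
    · simpa using hz.2.1
    · simp [hsz.symm, s1]
  have hZ : Z = {z, s, z * s} :=
    (Set.eq_of_subset_of_ncard_le hsubZ (by rw [hc3]; exact hZ3)).symm
  obtain ⟨e', ψ, he', hr', hψ⟩ := @exists_permHom G _ G (MulAction.compHom G (MulAut.conj (G := G)))
    _ (stabilizer G Λ) Z 3 (hZ ▸ hc3) hZinv
  replace hψ : ∀ (x : stabilizer G Λ) i, x * e' i * (x : G)⁻¹ = e' (ψ x i) := hψ
  obtain ⟨h, -, k1, k2, k3, k4⟩ := C.exists_inverted (Y := ⊤) hz hs' hj hzΛ hsΛ hjΛ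
    (mem_top _) (mem_top _) (mem_top _)
  set h' : stabilizer G Λ := ⟨h, k1⟩
  have hne : ∀ x : stabilizer G Λ, ∀ y ∈ Z, x * y * (x : G)⁻¹ ≠ y → ψ x ≠ 1 := by
    intro x y hy hne hx
    obtain ⟨i, rfl⟩ := hr'.ge hy
    exact hne (by rw [hψ, hx]; rfl)
  obtain ⟨d1, d2, d3⟩ := dec9 (ψ h') (ψ u')
    (by rw [← map_pow, show h' ^ 3 = 1 from Subtype.ext k4, map_one])
    (hne h' z ⟨hz, hzΛ⟩ (k3 ▸ hsz))
    (hne u' s ⟨hs', hsΛ⟩ fun e => hsz ((huz s).1 ⟨⟨hs', hsΛ⟩, e⟩))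
    (by rw [← map_mul, show u' * u' = 1 from Subtype.ext uu, map_one])
  have d4 := dec4 (φ h') (φ u') (hcube h k1 k4) (fun e => hsz (by
    rw [← k3, C.eq_one_of_inverted hj hjΛ k2 (hφ1 _ e)]; group)) hu1 hu2
  simp only [← map_mul, ← map_inv] at d1 d2 d3 d4
  set k := u' * (h' * u' * h'⁻¹) * (h' * (h' * u' * h'⁻¹) * h'⁻¹)
  have hF : φ.ker.map (stabilizer G Λ).subtype ≤ stabilizer G Λ := map_subtype_le _
  refine three_invol hF ψ e' he' hψ ?_ ?_ (k := k) (y := (k * (h' * k * h'⁻¹) : stabilizer G Λ))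
    ⟨k, d4, rfl⟩ ⟨_, mul_mem d4 (φ.normal_ker.conj_mem _ d4 _), rfl⟩ d1 d2 d3
  · rintro _ ⟨v, hv, rfl⟩ vv v1
    have h1 : Zi Ω (v : G) := ⟨vv, v1, b, hφ1 v hv hb⟩
    obtain ⟨i, hi⟩ := hr'.ge (show (v : G) ∈ Z from ⟨h1, C.stab _ h1 v.2⟩)
    exact ⟨i, hi.symm⟩
  · intro i j
    have h1 := (hr'.trans hZ).le (Set.mem_range_self i)
    have h2 := (hr'.trans hZ).le (Set.mem_range_self j)
    have e1 : s * z = z * s := hzc s hs.1
    have e2 : z * (z * s) = s := by rw [← mul_assoc, hz.1, one_mul]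
    have e3 : s * (z * s) = z := by rw [← mul_assoc, e1, mul_assoc, ss, mul_one]
    have e4 : z * s * z = s := by rw [mul_assoc, e1, e2]
    have e5 : z * s * s = z := by rw [mul_assoc, ss, mul_one]
    rw [pow_two]
    rcases h1 with h1 | h1 | h1 <;> rcases h2 with h2 | h2 | h2 <;> rw [h1, h2] <;>
      simp only [hz.1, ss, hzs2, e1, e2, e3, e4, e5, one_mul]

end Cfsg.Agent.Fix4
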